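import Cfsg.Agent.H323.DivList
import Cfsg.Agent.CoThreeStd.MTwelve
import Cfsg.Agent.Omega.Quasithin.Row.Psp
import Cfsg.Agent.Omega.Quasithin.Row.Psl
import Cfsg.Agent.Omega.Quasithin.Row.Psu
import Cfsg.Agent.SuzukiRankOne.SzModel

/-!
# H323.DivKill: exclusion of the groups of the list `Surv` different from `PSL₂(q)`
-/

set_option autoImplicit false

namespace Cfsg.Agent.H323.DivLin

open Module
open scoped commutatorElement

universe u v w

section sprop

variable {S : Type w} [Group S]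

theorem SProp.frob_false (h : SProp S) {X : Type*} [Group X] (f : X →* S) (hf : Function.Injective f)
    (p s : ℕ) [Fact p.Prime] [Fact s.Prime] (hp2 : p ≠ 2) (hs2 : s ≠ 2) (x y : X) (k : ℕ)
    (hy : y ^ p = 1) (hx : x ^ s = 1) (hxy : x * y * x⁻¹ = y ^ k) (hne : x * y ≠ y * x) : False := by
  apply hne
  apply hf
  rw [map_mul, map_mul]
  apply h.frob p s hp2 hs2 (f x) (f y) k
  · rw [← map_pow, hy, map_one]
  · rw [← map_pow, hx, map_one]
  · rw [← map_inv, ← map_mul, ← map_mul, ← map_pow, hxy]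

theorem prank_congr {X : Type*} [Group X] {p k : ℕ} (e : S ≃* X) (h : Cfsg.PRankLE p k S) :
    Cfsg.PRankLE p k X := by
  intro A hA hA2
  have h1 := h (A.comap e.toMonoidHom) ⟨⟨fun a b => by
    apply Subtype.ext
    apply e.injective
    rw [Subgroup.coe_mul, Subgroup.coe_mul, map_mul, map_mul]
    exact congrArg Subtype.val (hA.is_comm.comm (⟨e a, a.2⟩ : A) ⟨e b, b.2⟩)⟩⟩ (fun a ha => by
    apply e.injective
    rw [map_pow, map_one]
    exact hA2 _ ha)
  have h2 : Nat.card (A.comap e.toMonoidHom) = Nat.card A :=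
    Nat.card_congr ((e.subgroupMap (A.comap e.toMonoidHom)).toEquiv.trans
      (Equiv.subtypeEquivRight fun x => by
        constructor
        · rintro ⟨y, hy, rfl⟩; exact hy
        · intro hx
          exact ⟨e.symm x, by
            change e (e.symm x) ∈ A
            rw [e.apply_symm_apply]; exact hx, e.apply_symm_apply x⟩))
  rwa [h2] at h1

/-! ### alternating groups -/

theorem SProp.not_alt (h : SProp S) {n : ℕ} (hn : 7 ≤ n) (e : S ≃* alternatingGroup (Fin n)) : False := by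
  have : Fact (Nat.Prime 7) := ⟨by norm_num⟩
  have : Fact (Nat.Prime 3) := ⟨by norm_num⟩
  let ι : Equiv.Perm (Fin 7) →* Equiv.Perm (Fin n) := Equiv.Perm.viaEmbeddingHom (Fin.castLEEmb hn)
  have hι : Function.Injective ι := Equiv.Perm.viaEmbeddingHom_injective (Fin.castLEEmb hn)
  let x : Equiv.Perm (Fin 7) := ⟨fun i => 2 * i, fun i => 4 * i, by decide, by decide⟩
  let y : Equiv.Perm (Fin 7) := ⟨fun i => i + 1, fun i => i - 1, by decide, by decide⟩
  have hx : x ^ 3 = 1 := by decide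
  have hy : y ^ 7 = 1 := by decide
  have hxy : x * y * x⁻¹ = y ^ 2 := by decide
  have hne : x * y ≠ y * x := by decide
  have hsx : ι x ∈ alternatingGroup (Fin n) := by
    rw [Equiv.Perm.mem_alternatingGroup]
    have h1 : Equiv.Perm.sign (ι x) ^ 3 = 1 := by rw [← map_pow, ← map_pow, hx, map_one, map_one]
    rcases Int.units_eq_one_or (Equiv.Perm.sign (ι x)) with h2 | h2
    · exact h2
    · rw [h2] at h1
      exact absurd h1 (by decide)
  have hsy : ι y ∈ alternatingGroup (Fin n) := by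
    rw [Equiv.Perm.mem_alternatingGroup]
    have h1 : Equiv.Perm.sign (ι y) ^ 7 = 1 := by rw [← map_pow, ← map_pow, hy, map_one, map_one]
    rcases Int.units_eq_one_or (Equiv.Perm.sign (ι y)) with h2 | h2
    · exact h2
    · rw [h2] at h1
      exact absurd h1 (by decide)
  refine h.frob_false e.symm.toMonoidHom e.symm.injective 7 3 (by norm_num) (by norm_num)
    (⟨ι x, hsx⟩ : alternatingGroup (Fin n)) ⟨ι y, hsy⟩ 2 (Subtype.ext ?_) (Subtype.ext ?_) (Subtype.ext ?_) ?_
  · change ι y ^ 7 = 1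
    rw [← map_pow, hy, map_one]
  · change ι x ^ 3 = 1
    rw [← map_pow, hx, map_one]
  · change ι x * ι y * (ι x)⁻¹ = ι y ^ 2
    rw [← map_inv, ← map_mul, ← map_mul, ← map_pow, hxy]
  · intro hh
    have h1 : ι x * ι y = ι y * ι x := congrArg Subtype.val hh
    rw [← map_mul, ← map_mul] at h1
    exact hne (hι h1)

/-! ### the Mathieu group of degree twelve -/

theorem SProp.not_M12 (h : SProp S) (h12 : Cfsg.Spor.IsoM12 S) : False := by
  obtain ⟨e⟩ := h12
  have : Fact (Nat.Prime 11) := ⟨by norm_num⟩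
  have : Fact (Nat.Prime 5) := ⟨by norm_num⟩
  let wy : List ℕ := [5, 2, 1, 0]
  let wx : List ℕ := [0, 5, 1, 0]
  have hxy : CoThreeStd.MTwelve.wd wx * CoThreeStd.MTwelve.wd wy =
      CoThreeStd.MTwelve.wd wy ^ 5 * CoThreeStd.MTwelve.wd wx := by
    have h1 : CoThreeStd.MTwelve.wd wx * CoThreeStd.MTwelve.wd wy =
        CoThreeStd.MTwelve.wd wy * (CoThreeStd.MTwelve.wd wy * (CoThreeStd.MTwelve.wd wy *
          (CoThreeStd.MTwelve.wd wy * (CoThreeStd.MTwelve.wd wy * CoThreeStd.MTwelve.wd wx)))) := by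
      simp only [← CoThreeStd.MTwelve.wd_append]
      exact CoThreeStd.MTwelve.wd_eq (by decide +kernel)
    rw [h1]
    simp only [pow_succ, pow_zero, one_mul, mul_assoc]
  have hy : CoThreeStd.MTwelve.wd wy ^ 11 = 1 := by
    have h1 : CoThreeStd.MTwelve.wd wy ^ 11 = CoThreeStd.MTwelve.wd (wy ++ (wy ++ (wy ++ (wy ++ (wy ++ (wy ++
      (wy ++ (wy ++ (wy ++ (wy ++ wy)))))))))) := by
      simp only [CoThreeStd.MTwelve.wd_append, pow_succ, pow_zero, one_mul, mul_assoc]
    rw [h1, ← CoThreeStd.MTwelve.wd_nil]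
    exact CoThreeStd.MTwelve.wd_eq (by decide +kernel)
  have hx : CoThreeStd.MTwelve.wd wx ^ 5 = 1 := by
    have h1 : CoThreeStd.MTwelve.wd wx ^ 5 = CoThreeStd.MTwelve.wd (wx ++ (wx ++ (wx ++ (wx ++ wx)))) := by
      simp only [CoThreeStd.MTwelve.wd_append, pow_succ, pow_zero, one_mul, mul_assoc]
    rw [h1, ← CoThreeStd.MTwelve.wd_nil]
    exact CoThreeStd.MTwelve.wd_eq (by decide +kernel)
  have hne : CoThreeStd.MTwelve.wd wx * CoThreeStd.MTwelve.wd wy ≠
      CoThreeStd.MTwelve.wd wy * CoThreeStd.MTwelve.wd wx := by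
    rw [← CoThreeStd.MTwelve.wd_append, ← CoThreeStd.MTwelve.wd_append]
    exact CoThreeStd.MTwelve.wd_ne 0 (by norm_num) (by decide +kernel)
  exact h.frob_false e.symm.toMonoidHom e.symm.injective 11 5 (by norm_num) (by norm_num) _ _ 5 hy hx
    (by rw [hxy, mul_inv_cancel_right]) hne

/-! ### groups of Lie type of odd characteristic -/

theorem odd_char {F : Type*} [Field F] [Fintype F] (hF : Odd (Fintype.card F)) {p : ℕ} [CharP F p]
    (hp : p.Prime) : p ≠ 2 := by
  rintro rfl
  have : Fact (Nat.Prime 2) := ⟨hp⟩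
  obtain ⟨n, -, hn⟩ := FiniteField.card F 2
  rw [hn] at hF
  exact (Nat.not_odd_iff_even.2 (Nat.even_pow.2 ⟨even_two, n.2.ne'⟩)) hF

theorem SProp.not_psp (h : SProp S) (h4 : GH.Defs.IsSp4odd S) : False := by
  obtain ⟨F, _, _, hF, ⟨e⟩⟩ := h4
  obtain ⟨p, hchar⟩ := CharP.exists F
  have hp : p.Prime := CharP.char_is_prime F p
  have hp' : Fact p.Prime := ⟨hp⟩
  exact Omega.Quasithin.PspRow.not_prankLE (F := F) (m := 2) hp le_rfl
    (prank_congr e (h.rank p (odd_char hF hp)))

theorem SProp.not_psl4 (h : SProp S) (h4 : GH.Cov.Cut.IsL4three S) : False := by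
  obtain ⟨F, _, _, hF, ⟨e⟩⟩ := h4
  obtain ⟨p, hchar⟩ := CharP.exists F
  have hp : p.Prime := CharP.char_is_prime F p
  have hp' : Fact p.Prime := ⟨hp⟩
  refine Omega.Quasithin.PslRow.not_prankLE (F := F) (m := 3) (p := p) ?_
    (prank_congr e (h.rank p (odd_char (F := F) (by rw [Nat.odd_iff]; omega) hp)))
  obtain ⟨k, -, hk⟩ := FiniteField.card F p
  rw [hk, ← pow_mul]
  have : 1 ≤ (k : ℕ) := k.2
  exact Nat.pow_lt_pow_right hp.one_lt (by omega)

theorem SProp.not_psu4 (h : SProp S) (h4 : GH.Cov.Cut.IsU4one S) : False := by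
  obtain ⟨F, _, _, q, hF, hq, ⟨e⟩⟩ := h4
  obtain ⟨p, hchar⟩ := CharP.exists F
  have hp : p.Prime := CharP.char_is_prime F p
  have hp' : Fact p.Prime := ⟨hp⟩
  have hodd : Odd (Fintype.card F) := by
    rw [hF]; apply Odd.pow; rw [Nat.odd_iff]; omega
  have hp2 := odd_char hodd (p := p) hp
  have h2 : (2 : F) ≠ 0 := by
    intro h0
    have h1 := (CharP.cast_eq_zero_iff F p 2).1 (by exact_mod_cast h0)
    exact hp2 ((Nat.prime_dvd_prime_iff_eq hp Nat.prime_two).1 h1)
  refine Omega.Quasithin.PsuRow.not_prankLE (F := F) (m := 2) hF h2 (p := p) ?_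
    (prank_congr e (h.rank p hp2))
  obtain ⟨k, -, hk⟩ := FiniteField.card F p
  have hqp : ∃ j, q = p ^ j := by
    have h1 : q ∣ p ^ (k : ℕ) := by rw [← hk, hF]; exact dvd_pow_self q two_ne_zero
    obtain ⟨j, -, hj⟩ := (Nat.dvd_prime_pow hp).1 h1
    exact ⟨j, hj⟩
  obtain ⟨j, rfl⟩ := hqp
  rw [← pow_mul]
  have hj : j ≠ 0 := by
    rintro rfl
    rw [pow_zero, one_pow] at hF
    exact absurd hF Fintype.one_lt_card.ne'
  exact Nat.pow_lt_pow_right hp.one_lt (by omega)

end sprop

namespace Min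

variable {S : Type w} [Group S] [IsSimpleGroup S] {H : Type u} [Group H] {f : H →* S}

theorem map_center (h : Min S H f) (hna : ∃ a b : S, a * b ≠ b * a) {z : H} (hz : z ∈ Subgroup.center H) :
    f z = 1 := by
  have hc : Subgroup.center S = ⊥ := by
    rcases (inferInstance : (Subgroup.center S).Normal).eq_bot_or_eq_top with h1 | h1
    · exact h1
    · exfalso
      obtain ⟨a, b, hab⟩ := hna
      apply hab
      have : b ∈ Subgroup.center S := by rw [h1]; exact Subgroup.mem_top b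
      exact Subgroup.mem_center_iff.1 this a
  rw [← Subgroup.mem_bot, ← hc, Subgroup.mem_center_iff]
  intro g
  obtain ⟨x, rfl⟩ := h.surj g
  rw [← map_mul, ← map_mul, Subgroup.mem_center_iff.1 hz x]

/-- **No elementary abelian subgroup of order 8 with conjugate involutions.** -/
theorem not_eight (h : Min S H f) (hna : ∃ a b : S, a * b ≠ b * a) (hcen : f.ker ≤ Subgroup.center H)
    (E : Subgroup S) (hE2 : ∀ x ∈ E, x * x = 1)
    (hEc : ∀ x ∈ E, ∀ y ∈ E, x ≠ 1 → y ≠ 1 → ∃ g : S, g * x * g⁻¹ = y)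
    {a b c : S} (ha : a ∈ E) (hb : b ∈ E) (hc : c ∈ E) (ha1 : a ≠ 1) (hb1 : b ≠ 1) (hc1 : c ≠ 1)
    (hab : a ≠ b) (hac : a ≠ c) (hbc : b ≠ c) (habc : c ≠ a * b) : False := by
  have hfin := h.fin
  have hB := h.linB
  have hinvE : ∀ x ∈ E, x⁻¹ = x := fun x hx => inv_eq_of_mul_eq_one_left (hE2 x hx)
  have hfeq : ∀ x y : H, f x = f y → ∃ m ∈ f.ker, y = x * m := fun x y hxy =>
    ⟨x⁻¹ * y, by rw [MonoidHom.mem_ker, map_mul, map_inv, hxy, inv_mul_cancel], by group⟩
  -- pairwise noncommuting lifts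
  have key : ∀ x ∈ E, ∀ y ∈ E, x ≠ 1 → y ≠ 1 → x ≠ y → ∀ s t : H, f s = x → f t = y → s * t ≠ t * s := by
    intro x hx y hy hx1 hy1 hxy s t hs ht hst
    by_cases hcase : ∃ t₀ : H, f t₀ ∈ E ∧ f t₀ ≠ 1 ∧ t₀ * t₀ = 1
    · obtain ⟨t₀, h1, h2, h3⟩ := hcase
      have hlift : ∀ y ∈ E, y ≠ 1 → ∃ t : H, f t = y ∧ t * t = 1 := by
        intro y hy hy1
        obtain ⟨g, hg⟩ := hEc _ h1 y hy h2 hy1
        obtain ⟨g', rfl⟩ := h.surj g
        refine ⟨g' * t₀ * g'⁻¹, by rw [map_mul, map_mul, map_inv, hg], ?_⟩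
        have e : g' * t₀ * g'⁻¹ * (g' * t₀ * g'⁻¹) = g' * (t₀ * t₀) * g'⁻¹ := by group
        rw [e, h3, mul_one, mul_inv_cancel]
      obtain ⟨u, hu, huu⟩ := hlift x hx hx1
      obtain ⟨v, hv, hvv⟩ := hlift y hy hy1
      obtain ⟨m, hm, rfl⟩ := hfeq s u (by rw [hs, hu])
      obtain ⟨n, hn, rfl⟩ := hfeq t v (by rw [ht, hv])
      have cm := fun g => Subgroup.mem_center_iff.1 (hcen hm) g
      have cn := fun g => Subgroup.mem_center_iff.1 (hcen hn) g
      have huv : s * m * (t * n) = t * n * (s * m) := by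
        calc s * m * (t * n) = s * (m * t) * n := by group
          _ = s * (t * m) * n := by rw [cm t]
          _ = s * t * (m * n) := by group
          _ = t * s * (n * m) := by rw [hst, cn m]
          _ = t * (s * n) * m := by group
          _ = t * (n * s) * m := by rw [cn s]
          _ = t * n * (s * m) := by group
      have huc : s * m ∉ Subgroup.center H := fun hh => hx1 (by rw [← hu, h.map_center hna hh])
      rcases hB.inv _ _ huu hvv huv huc with h4 | h4
      · exact hy1 (by rw [← hv, h.map_center hna h4])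
      · have h5 := h.map_center hna h4
        rw [map_mul, hu, hv, mul_eq_one_iff_eq_inv, hinvE x hx] at h5
        exact hxy h5.symm
    · push Not at hcase
      -- squares of lifts are nonsquares of the kernel
      let φ : f.ker →* f.ker :=
        { toFun := fun m => m * m
          map_one' := mul_one 1
          map_mul' := fun a b => by
            have e : a * b = b * a := Subtype.ext (Subgroup.mem_center_iff.1 (hcen b.2) a)
            calc a * b * (a * b) = a * (b * a) * b := by group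
              _ = a * (a * b) * b := by rw [e]
              _ = a * a * (b * b) := by group }
      have hkerφ : Nat.card φ.ker ≤ 2 := by
        classical
        by_contra hcon
        push Not at hcon
        have := Fintype.ofFinite φ.ker
        have h1 : 1 < ((Finset.univ : Finset φ.ker).erase 1).card := by
          rw [Finset.card_erase_of_mem (Finset.mem_univ _), Finset.card_univ, ← Nat.card_eq_fintype_card]
          omega
        obtain ⟨u, hu, v, hv, huv⟩ := Finset.one_lt_card.1 h1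
        have hu1 := Finset.ne_of_mem_erase hu
        have hv1 := Finset.ne_of_mem_erase hv
        apply huv
        apply Subtype.ext
        apply Subtype.ext
        apply hB.zinv _ (hcen u.1.2) _ (hcen v.1.2)
        · exact congrArg Subtype.val ((MonoidHom.mem_ker).1 u.2)
        · exact congrArg Subtype.val ((MonoidHom.mem_ker).1 v.2)
        · exact fun hh => hu1 (Subtype.ext (Subtype.ext hh))
        · exact fun hh => hv1 (Subtype.ext (Subtype.ext hh))
      have hidx : φ.range.index ≤ 2 := by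
        have h1 := φ.range.card_mul_index
        have h2 := φ.ker.card_mul_index
        rw [Subgroup.index_ker] at h2
        have h3 : 0 < Nat.card φ.range := Nat.card_pos
        have h4 : Nat.card φ.range * φ.range.index = Nat.card φ.range * Nat.card φ.ker := by
          rw [h1, ← h2, mul_comm]
        rw [Nat.eq_of_mul_eq_mul_left h3 h4]
        exact hkerφ
      have hns : ∀ w ∈ E, w ≠ 1 → ∀ r : H, f r = w → ∃ m : f.ker, (m : H) = r * r ∧ m ∉ φ.range := by
        intro w hw hw1 r hr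
        refine ⟨⟨r * r, by rw [MonoidHom.mem_ker, map_mul, hr, hE2 w hw]⟩, rfl, ?_⟩
        rintro ⟨n, hn⟩
        have hn' : (n : H) * n = r * r := congrArg Subtype.val hn
        have hfn : f (n : H) = 1 := n.2
        apply hcase (r * (n : H)⁻¹)
        · rw [map_mul, map_inv, hfn, hr, inv_one, mul_one]; exact hw
        · rw [map_mul, map_inv, hfn, hr, inv_one, mul_one]; exact hw1
        · have cn := Subgroup.mem_center_iff.1 ((Subgroup.center H).inv_mem (hcen n.2)) r
          calc r * (n : H)⁻¹ * (r * (n : H)⁻¹) = r * ((n : H)⁻¹ * r) * (n : H)⁻¹ := by group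
            _ = r * (r * (n : H)⁻¹) * (n : H)⁻¹ := by rw [cn]
            _ = r * r * ((n : H) * n)⁻¹ := by group
            _ = 1 := by rw [hn', mul_inv_cancel]
      obtain ⟨m, hm, hmr⟩ := hns x hx hx1 s hs
      obtain ⟨n, hn, hnr⟩ := hns y hy hy1 t ht
      have hxyE : x * y ∈ E := E.mul_mem hx hy
      have hxy1 : x * y ≠ 1 := by
        intro hh
        rw [mul_eq_one_iff_eq_inv, hinvE y hy] at hh
        exact hxy hh
      obtain ⟨l, hl, hlr⟩ := hns _ hxyE hxy1 (s * t) (by rw [map_mul, hs, ht])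
      apply hlr
      have hlm : l = m * n := by
        apply Subtype.ext
        rw [Subgroup.coe_mul, hl, hm, hn]
        calc s * t * (s * t) = s * (t * s) * t := by group
          _ = s * (s * t) * t := by rw [hst]
          _ = s * s * (t * t) := by group
      rw [hlm]
      have hi1 : φ.range.index ≠ 1 := by
        intro h1
        rw [Subgroup.index_eq_one] at h1
        exact hmr (by rw [h1]; exact Subgroup.mem_top m)
      have hi0 : φ.range.index ≠ 0 := Subgroup.index_ne_zero_of_finite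
      have hi2 : φ.range.index = 2 := by omega
      rw [Subgroup.mul_mem_iff_of_index_two hi2]
      exact iff_of_false hmr hnr
  obtain ⟨x, rfl⟩ := h.surj a
  obtain ⟨y, rfl⟩ := h.surj b
  obtain ⟨z, rfl⟩ := h.surj c
  have hcomE : ∀ x ∈ E, ∀ y ∈ E, x * y = y * x := by
    intro x hx y hy
    have h1 := hinvE _ (E.mul_mem hx hy)
    rw [mul_inv_rev, hinvE x hx, hinvE y hy] at h1
    exact h1.symm
  -- commutators
  have hcm : ∀ s t : H, f s ∈ E → f t ∈ E → ⁅s, t⁆ ∈ Subgroup.center H ∧ ⁅s, t⁆ * ⁅s, t⁆ = 1 := by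
    intro s t hs ht
    have h1 : ⁅s, t⁆ ∈ Subgroup.center H := by
      apply hcen
      rw [MonoidHom.mem_ker, map_commutatorElement, commutatorElement_eq_one_iff_mul_comm]
      exact hcomE _ hs _ ht
    refine ⟨h1, ?_⟩
    have h2 : s * s ∈ Subgroup.center H := by
      apply hcen
      rw [MonoidHom.mem_ker, map_mul]; exact hE2 _ hs
    have h3 : ⁅s * s, t⁆ = 1 := by
      rw [commutatorElement_eq_one_iff_mul_comm]
      exact (Subgroup.mem_center_iff.1 h2 t).symm
    have h4 : ⁅s * s, t⁆ = s * ⁅s, t⁆ * s⁻¹ * ⁅s, t⁆ := by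
      simp only [commutatorElement_def]; group
    rw [h4, Subgroup.mem_center_iff.1 h1 s, mul_assoc ⁅s, t⁆ s, mul_inv_cancel, mul_one] at h3
    exact h3
  have n1 := key _ hc _ ha hc1 ha1 (Ne.symm hac) z x rfl rfl
  have n2 := key _ hc _ hb hc1 hb1 (Ne.symm hbc) z y rfl rfl
  have hab1 : f x * f y ≠ 1 := by
    intro hh
    rw [mul_eq_one_iff_eq_inv, hinvE _ hb] at hh
    exact hab hh
  have n3 := key _ hc _ (E.mul_mem ha hb) hc1 hab1 habc z (x * y) rfl (map_mul f x y)
  obtain ⟨c1, c2⟩ := hcm z x hc ha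
  obtain ⟨d1, d2⟩ := hcm z y hc hb
  have e1 : ⁅z, x⁆ = ⁅z, y⁆ := hB.zinv _ c1 _ d1 c2 d2
    (fun hh => n1 (commutatorElement_eq_one_iff_mul_comm.1 hh))
    (fun hh => n2 (commutatorElement_eq_one_iff_mul_comm.1 hh))
  apply n3
  rw [← commutatorElement_eq_one_iff_mul_comm]
  have h4 : ⁅z, x * y⁆ = ⁅z, x⁆ * (x * ⁅z, y⁆ * x⁻¹) := by
    simp only [commutatorElement_def]; group
  rw [h4, Subgroup.mem_center_iff.1 d1 x, mul_assoc _ x, mul_inv_cancel, mul_one, e1]
  exact d2

theorem not_sz8 (h : Min S H f) (hna : ∃ a b : S, a * b ≠ b * a) (hcen : f.ker ≤ Subgroup.center H)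
    (h8 : GH.Defs.IsSz8 S) : False := by
  obtain ⟨F, _, _, hF, ⟨e⟩⟩ := h8
  have hF' : Fintype.card F = 2 ^ (2 * 1 + 1) := by rw [hF]; norm_num
  have hG : LieRecognition.SzMatrix.Good F (LieRecognition.SzMatrix.theta hF') 4 :=
    LieRecognition.SzMatrix.good hF'
  let E : Subgroup S :=
    { carrier := {x | ∃ b : F, e x = hG.u 0 b}
      mul_mem' := by
        rintro x y ⟨b, hb⟩ ⟨c, hc⟩
        refine ⟨b + c, ?_⟩
        rw [map_mul, hb, hc, hG.u_mul, add_zero, zero_mul, add_zero]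
      one_mem' := ⟨0, by rw [map_one, hG.u_zero]⟩
      inv_mem' := by
        rintro x ⟨b, hb⟩
        refine ⟨b, ?_⟩
        rw [map_inv, hb, inv_eq_iff_mul_eq_one, hG.u_mul, add_zero, zero_mul, add_zero, hG.add_self,
          hG.u_zero] }
  have hmem : ∀ b : F, e.symm (hG.u 0 b) ∈ E := fun b => ⟨b, e.apply_symm_apply _⟩
  have hne : ∀ b c : F, e.symm (hG.u 0 b) = e.symm (hG.u 0 c) → b = c := fun b c hbc =>
    (hG.u_inj (e.symm.injective hbc)).2
  have hone : ∀ b : F, b ≠ 0 → e.symm (hG.u 0 b) ≠ 1 := by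
    intro b hb hb1
    rw [← map_one e.symm, ← hG.u_zero] at hb1
    exact hb (hne _ _ hb1)
  -- three elements
  obtain ⟨r, hr0, hr1⟩ : ∃ r : F, r ≠ 0 ∧ r ≠ 1 := by
    classical
    have h1 : (({0, 1} : Finset F)ᶜ).Nonempty := by
      rw [← Finset.card_pos, Finset.card_compl, hF]
      have : ({0, 1} : Finset F).card ≤ 2 := Finset.card_le_two
      omega
    obtain ⟨r, hr⟩ := h1
    simp only [Finset.mem_compl, Finset.mem_insert, Finset.mem_singleton, not_or] at hr
    exact ⟨r, hr.1, hr.2⟩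
  obtain ⟨s, hs0, hs1, hsr, hsr1⟩ : ∃ s : F, s ≠ 0 ∧ s ≠ 1 ∧ s ≠ r ∧ s ≠ 1 + r := by
    classical
    have h1 : (({0, 1, r, 1 + r} : Finset F)ᶜ).Nonempty := by
      rw [← Finset.card_pos, Finset.card_compl, hF]
      have : ({0, 1, r, 1 + r} : Finset F).card ≤ 4 := Finset.card_le_four
      omega
    obtain ⟨s, hs⟩ := h1
    simp only [Finset.mem_compl, Finset.mem_insert, Finset.mem_singleton, not_or] at hs
    exact ⟨s, hs.1, hs.2.1, hs.2.2.1, hs.2.2.2⟩
  refine h.not_eight hna hcen E ?_ ?_ (hmem 1) (hmem r) (hmem s) (hone 1 one_ne_zero) (hone r hr0)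
    (hone s hs0) (fun hh => hr1 (hne _ _ hh).symm) (fun hh => hs1 (hne _ _ hh).symm)
    (fun hh => hsr (hne _ _ hh).symm) ?_
  · rintro x ⟨b, hb⟩
    apply e.injective
    rw [map_mul, hb, hG.u_mul, add_zero, zero_mul, add_zero, hG.add_self, hG.u_zero, map_one]
  · rintro x ⟨b, hb⟩ y ⟨c, hc⟩ hx1 hy1
    have hb0 : b ≠ 0 := by
      rintro rfl
      apply hx1
      apply e.injective
      rw [hb, hG.u_zero, map_one]
    have hc0 : c ≠ 0 := by
      rintro rfl
      apply hy1
      apply e.injective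
      rw [hc, hG.u_zero, map_one]
    let k : Fˣ := Units.mk0 (b⁻¹ * c) (mul_ne_zero (inv_ne_zero hb0) hc0)
    refine ⟨e.symm (SuzukiRankOne.SzModel.kap hG k), ?_⟩
    apply e.injective
    rw [map_mul, map_mul, map_inv, e.apply_symm_apply, hb, SuzukiRankOne.SzModel.kap_conj, hc, zero_mul,
      zero_mul]
    congr 1
    change b * (b⁻¹ * c) = c
    rw [mul_inv_cancel_left₀ hb0]
  · intro hh
    rw [← map_mul, hG.u_mul, add_zero, zero_mul, add_zero] at hh
    exact hsr1 (hne _ _ hh)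

/-- **Only `PSL₂(q)`, `q` odd, remains.** -/
theorem isL2odd (h : Min S H f) (hna : ∃ a b : S, a * b ≠ b * a) (hcen : f.ker ≤ Subgroup.center H) :
    GH.Defs.IsL2odd S := by
  have hfin := h.fin
  have hS : SProp S := sprop h.linB.toLinA h.surj (h.isPGroup_ker hna)
  rcases h.surv hna hcen with h1 | ⟨⟨e⟩⟩ | ⟨n, h8, -, ⟨e⟩⟩ | h1 | h1 | h1 | h1 | h1
  · exact h1
  · exact (hS.not_alt le_rfl e).elim
  · exact (hS.not_alt (by omega) e).elim
  · exact (h.not_sz8 hna hcen h1).elim
  · exact (hS.not_M12 h1).elim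
  · exact (hS.not_psp h1).elim
  · exact (hS.not_psl4 h1).elim
  · exact (hS.not_psu4 h1).elim

end Min

end Cfsg.Agent.H323.DivLin
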