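import Mathlib
import Cfsg.Agent.H323.DivLin

/-!
# H323.DivTrace: rational traces

* `char_inv` : rational characters are real;
* `sum_sq_le` : `Σ ψ(h)² ≤ |H| dim_ℚ E` for a spanning group;
* `sum_pow` : the trace of the elements of a cyclic group and fixed points.
-/

set_option autoImplicit false

namespace Cfsg.Agent.H323.DivLin

open Module Matrix

universe u v w

section generic

variable {G V : Type*} [Group G] [Fintype G] [AddCommGroup V] [Module ℚ V] [FiniteDimensional ℚ V]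

theorem char_inv (ρ : Representation ℚ G V) (g : G) : ρ.character g⁻¹ = ρ.character g := by
  classical
  let b := Module.finBasis ℚ V
  let X : G → Matrix (Fin (finrank ℚ V)) (Fin (finrank ℚ V)) ℚ := fun g => LinearMap.toMatrix b b (ρ g)
  have hX1 : X 1 = 1 := by
    change LinearMap.toMatrix b b (ρ 1) = 1
    rw [map_one]; exact LinearMap.toMatrix_one b
  have hXm : ∀ a c, X (a * c) = X a * X c := by
    intro a c
    change LinearMap.toMatrix b b (ρ (a * c)) = _
    rw [map_mul]; exact LinearMap.toMatrix_mul b (ρ a) (ρ c)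
  have hXtr : ∀ a, (X a).trace = ρ.character a := fun a => (LinearMap.trace_eq_matrix_trace ℚ b (ρ a)).symm
  let P : Matrix (Fin (finrank ℚ V)) (Fin (finrank ℚ V)) ℚ := ∑ a : G, (X a)ᵀ * X a
  have hP : ∀ c, (X c)ᵀ * P * X c = P := by
    intro c
    change (X c)ᵀ * (∑ a : G, (X a)ᵀ * X a) * X c = ∑ a : G, (X a)ᵀ * X a
    rw [Finset.mul_sum, Finset.sum_mul, ← Equiv.sum_comp (Equiv.mulRight c) (fun a => (X a)ᵀ * X a)]
    refine Finset.sum_congr rfl fun a _ => ?_
    rw [Equiv.coe_mulRight, hXm, Matrix.transpose_mul]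
    simp only [Matrix.mul_assoc]
  have hdet : IsUnit P.det := by
    rw [isUnit_iff_ne_zero]
    intro h0
    obtain ⟨v, hv, hPv⟩ := Matrix.exists_mulVec_eq_zero_iff.2 h0
    have h1 : v ⬝ᵥ (P *ᵥ v) = ∑ a : G, (X a *ᵥ v) ⬝ᵥ (X a *ᵥ v) := by
      change v ⬝ᵥ ((∑ a : G, (X a)ᵀ * X a) *ᵥ v) = _
      rw [Matrix.sum_mulVec, dotProduct_sum]
      refine Finset.sum_congr rfl fun a _ => ?_
      rw [← Matrix.mulVec_mulVec, Matrix.dotProduct_mulVec, Matrix.vecMul_transpose]
    rw [hPv, dotProduct_zero] at h1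
    have h2 : (X 1 *ᵥ v) ⬝ᵥ (X 1 *ᵥ v) = 0 := by
      have hnn : ∀ w : Fin (finrank ℚ V) → ℚ, 0 ≤ w ⬝ᵥ w := fun w =>
        Finset.sum_nonneg fun i _ => mul_self_nonneg _
      exact (Finset.sum_eq_zero_iff_of_nonneg fun a _ => hnn _).1 h1.symm 1 (Finset.mem_univ _)
    rw [hX1, Matrix.one_mulVec, dotProduct_self_eq_zero] at h2
    exact hv h2
  have h1 : X g⁻¹ = P⁻¹ * (X g)ᵀ * P := by
    have h2 : X g * X g⁻¹ = 1 := by rw [← hXm, mul_inv_cancel, hX1]
    calc X g⁻¹ = P⁻¹ * P * X g⁻¹ := by rw [Matrix.nonsing_inv_mul _ hdet, Matrix.one_mul]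
      _ = P⁻¹ * ((X g)ᵀ * P * X g) * X g⁻¹ := by rw [hP]
      _ = P⁻¹ * (X g)ᵀ * P * (X g * X g⁻¹) := by simp only [Matrix.mul_assoc]
      _ = _ := by rw [h2, Matrix.mul_one]
  rw [← hXtr, ← hXtr, h1, Matrix.trace_mul_comm, ← Matrix.mul_assoc, Matrix.mul_nonsing_inv _ hdet,
    Matrix.one_mul, Matrix.trace_transpose]

end generic

section divring

variable {E : Type u} [DivisionRing E] [Algebra ℚ E] [Module.Finite ℚ E]
variable {V : Type w} [AddCommGroup V] [Module E V] [Module ℚ V] [IsScalarTower ℚ E V] [Module.Finite E V]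
variable {H : Type v} [Group H] (ρ : H →* Module.End E V)

/-- the rational representation -/
def rq : Representation ℚ H V where
  toFun h := (ρ h).restrictScalars ℚ
  map_one' := by rw [map_one]; rfl
  map_mul' a b := by rw [map_mul]; rfl

omit [Module.Finite ℚ E] [Module.Finite E V] in
theorem rq_apply (h : H) (v : V) : rq ρ h v = ρ h v := rfl

omit [Module.Finite ℚ E] [Module.Finite E V] in
theorem finrank_restrict (W : Submodule E V) :
    finrank ℚ (W.restrictScalars ℚ) = finrank ℚ E * finrank E W :=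
  (Module.finrank_mul_finrank ℚ E W).symm

omit [Module.Finite ℚ E] [Module.Finite E V] in
/-- the trace -/
noncomputable def psi (h : H) : ℚ := (rq ρ).character h

omit [Module.Finite ℚ E] [Module.Finite E V] in
theorem psi_def (h : H) : psi ρ h = LinearMap.trace ℚ V (rq ρ h) := rfl

theorem psi_one : psi ρ 1 = finrank E V * finrank ℚ E := by
  have : Module.Finite ℚ V := Module.Finite.trans E V
  rw [psi, Representation.char_one, ← Module.finrank_mul_finrank ℚ E V]
  push_cast
  ring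

theorem psi_inv [Finite H] (h : H) : psi ρ h⁻¹ = psi ρ h := by
  have : Module.Finite ℚ V := Module.Finite.trans E V
  have := Fintype.ofFinite H
  exact char_inv _ _

omit [Module.Finite ℚ E] [Module.Finite E V] in
theorem psi_neg {z : H} (hz : ∀ v, ρ z v = -v) (h : H) : psi ρ (z * h) = - psi ρ h := by
  have h1 : rq ρ (z * h) = - rq ρ h := by
    apply LinearMap.ext
    intro v
    rw [LinearMap.neg_apply, rq_apply, rq_apply, rho_mul, hz]
  rw [psi_def, psi_def, h1, map_neg]

/-- traces of a cyclic group and fixed points -/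
theorem sum_psi_pow {x : H} {n : ℕ} (hn : n ≠ 0) (hx : x ^ n = 1) :
    ∑ i ∈ Finset.range n, psi ρ (x ^ i) = n * (finrank ℚ E * finrank E (Fx ρ x)) := by
  have : Module.Finite ℚ V := Module.Finite.trans E V
  have hn' : (n : ℚ) ≠ 0 := Nat.cast_ne_zero.2 hn
  let P : V →ₗ[ℚ] V := (n : ℚ)⁻¹ • ∑ i ∈ Finset.range n, rq ρ (x ^ i)
  have hP : ∀ v, P v = (n : ℚ)⁻¹ • ∑ i ∈ Finset.range n, ρ (x ^ i) v := by
    intro v
    change ((n : ℚ)⁻¹ • ∑ i ∈ Finset.range n, rq ρ (x ^ i)) v = _
    rw [LinearMap.smul_apply, LinearMap.sum_apply]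
    rfl
  have hproj : LinearMap.IsProj ((Fx ρ x).restrictScalars ℚ) P := by
    refine ⟨fun v => ?_, fun v hv => ?_⟩
    · change P v ∈ Fx ρ x
      rw [mem_Fx, hP]
      have h1 : ρ x ((n : ℚ)⁻¹ • ∑ i ∈ Finset.range n, ρ (x ^ i) v) =
          (n : ℚ)⁻¹ • ∑ i ∈ Finset.range n, ρ (x ^ (i + 1)) v := by
        have : ∀ w, ρ x ((n : ℚ)⁻¹ • w) = (n : ℚ)⁻¹ • ρ x w := fun w =>
          LinearMap.map_smul ((ρ x).restrictScalars ℚ) _ _
        rw [this, map_sum]
        congr 1
        refine Finset.sum_congr rfl fun i _ => ?_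
        rw [← rho_mul, ← pow_succ']
      rw [h1]
      congr 1
      obtain ⟨m, rfl⟩ := Nat.exists_eq_succ_of_ne_zero hn
      rw [Finset.sum_range_succ, Finset.sum_range_succ' (fun i => ρ (x ^ i) v), pow_zero,
        show m + 1 = m.succ from rfl, hx]
    · have hv' : ρ x v = v := hv
      rw [hP]
      have h1 : ∀ i ∈ Finset.range n, ρ (x ^ i) v = v := fun i _ => fixed_pow ρ hv' i
      rw [Finset.sum_congr rfl h1, Finset.sum_const, Finset.card_range, ← Nat.cast_smul_eq_nsmul ℚ,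
        smul_smul, inv_mul_cancel₀ hn', one_smul]
  have h2 := hproj.trace
  rw [finrank_restrict] at h2
  have h3 : LinearMap.trace ℚ V P = (n : ℚ)⁻¹ * ∑ i ∈ Finset.range n, psi ρ (x ^ i) := by
    change LinearMap.trace ℚ V ((n : ℚ)⁻¹ • ∑ i ∈ Finset.range n, rq ρ (x ^ i)) = _
    rw [LinearMap.map_smul, map_sum, smul_eq_mul]
    rfl
  rw [h3] at h2
  have h4 : ∑ i ∈ Finset.range n, psi ρ (x ^ i) = n * ((n : ℚ)⁻¹ * ∑ i ∈ Finset.range n, psi ρ (x ^ i)) := by
    rw [← mul_assoc, mul_inv_cancel₀ hn', one_mul]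
  rw [h4, h2]
  push_cast
  ring

/-- **The sum of the squares.** -/
theorem sum_sq_le [Fintype H] {φ : V →ₗ[E] E} {e0 : V} (hφ : φ e0 = 1)
    (hs : ∀ T : V →ₗ[ℚ] V, (∀ h v, T (ρ h v) = ρ h (T v)) → ∀ (A : Module.End E V) (v : V), T (A v) = A (T v)) :
    ∑ h : H, psi ρ h ^ 2 ≤ Nat.card H * finrank ℚ E := by
  classical
  have : Module.Finite ℚ V := Module.Finite.trans E V
  have hH : (Nat.card H : ℚ) ≠ 0 := Nat.cast_ne_zero.2 Nat.card_pos.ne'
  have : Invertible (Nat.card H : ℚ) := invertibleOfNonzero hH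
  have h1 := Representation.card_inv_mul_sum_char_mul_char_eq_finrank (rq ρ) (rq ρ)
  have h2 : ∑ g : H, (rq ρ).character g * (rq ρ).character g⁻¹ = ∑ h : H, psi ρ h ^ 2 := by
    refine Finset.sum_congr rfl fun g _ => ?_
    have h3 := psi_inv ρ g
    change psi ρ g * psi ρ g⁻¹ = _
    rw [h3]; ring
  rw [h2] at h1
  have h3 : finrank ℚ (Representation.IntertwiningMap (rq ρ) (rq ρ)) ≤ finrank ℚ E := by
    let L : Representation.IntertwiningMap (rq ρ) (rq ρ) →ₗ[ℚ] E :=
      (φ.restrictScalars ℚ).comp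
      { toFun := fun T => T.toLinearMap e0
        map_add' := fun S T => rfl
        map_smul' := fun c T => by
          rw [RingHom.id_apply]
          exact LinearMap.congr_fun (Representation.IntertwiningMap.toLinearMap_smul (rq ρ) (rq ρ) c T) e0 }
    refine LinearMap.finrank_le_finrank_of_injective (f := L) ?_
    rw [injective_iff_map_eq_zero]
    intro T hT
    have hcomm : ∀ A : Module.End E V, ∀ v, T.toLinearMap (A v) = A (T.toLinearMap v) :=
      hs T.toLinearMap fun h v => LinearMap.congr_fun (T.isIntertwining' h) v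
    have hLT : φ (T.toLinearMap e0) = 0 := hT
    let mk : V → Module.End E V := fun v => (LinearMap.toSpanSingleton E V v).comp φ
    have hmk : ∀ v w, mk v w = φ w • v := fun v w => rfl
    have he0 : mk e0 e0 = e0 := by
      rw [hmk, hφ, one_smul]
    have hTe : T.toLinearMap e0 = 0 := by
      rw [← he0, hcomm, hmk, hLT, zero_smul]
    apply Representation.IntertwiningMap.ext
    apply LinearMap.ext
    intro v
    have hv : mk v e0 = v := by
      rw [hmk, hφ, one_smul]
    rw [← hv, hcomm, hTe, map_zero]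
    rfl
  have h4 : ∑ h : H, psi ρ h ^ 2 = Nat.card H * ((Nat.card H : ℚ)⁻¹ * ∑ h : H, psi ρ h ^ 2) := by
    rw [← mul_assoc, mul_inv_cancel₀ hH, one_mul]
  rw [h4, h1]
  have h5 : (finrank ℚ (Representation.IntertwiningMap (rq ρ) (rq ρ)) : ℚ) ≤ finrank ℚ E := by
    exact_mod_cast h3
  exact mul_le_mul_of_nonneg_left h5 (Nat.cast_nonneg _)

end divring

end Cfsg.Agent.H323.DivLin
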